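import Cfsg.Agent.H609.TH.Expl

/-!
# S3938, `McL`: elements of order 5 (helper991)

`|T| = 5³ m`; `a`, `b`, `z` generate a non-abelian group of order 125 and exponent 5: it is enough to treat `z`, `b`, `a bˡ`.
-/

set_option autoImplicit false

namespace Cfsg.Agent.H991.SprMcL.Five

open Subgroup Cfsg.Agent.H609.TH

universe u

variable {T : Type u} [Group T]

/-- the relations -/
structure Rel (a b z : T) : Prop where
  ba : b * a = a * b * z
  za : z * a = a * z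
  zb : z * b = b * z
  a5 : a ^ 5 = 1
  b5 : b ^ 5 = 1
  z5 : z ^ 5 = 1
  z1 : z ≠ 1

/-- normal form -/
def e (a b z : T) (i j k : ℤ) : T := a ^ i * b ^ j * z ^ k

variable {a b z : T}

theorem Rel.comm (R : Rel a b z) (m i : ℤ) : b ^ m * a ^ i = a ^ i * b ^ m * z ^ (m * i) := by
  have hbz : Commute b z := R.zb.symm
  have haz : Commute a z := R.za.symm
  have h1 : SemiconjBy a (b * z) b := by
    change a * (b * z) = b * a
    rw [R.ba, mul_assoc]
  have h2 : a * (b ^ m * z ^ m) = b ^ m * a := by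
    have := h1.zpow_right m
    rw [hbz.mul_zpow] at this
    exact this
  have h3 : SemiconjBy (b ^ m) a (a * z ^ m) := by
    change b ^ m * a = a * z ^ m * b ^ m
    rw [← h2, mul_assoc]
    congr 1
    exact (hbz.zpow_zpow m m).eq
  have h4 := h3.zpow_right i
  have h5 : (a * z ^ m) ^ i = a ^ i * z ^ (m * i) := by
    rw [(haz.zpow_right m).mul_zpow, zpow_mul]
  rw [h5] at h4
  calc b ^ m * a ^ i = a ^ i * z ^ (m * i) * b ^ m := h4
    _ = a ^ i * (z ^ (m * i) * b ^ m) := by group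
    _ = a ^ i * (b ^ m * z ^ (m * i)) := by rw [(hbz.zpow_zpow m (m * i)).eq]
    _ = _ := by rw [mul_assoc]

theorem Rel.mul (R : Rel a b z) (i j k i' j' k' : ℤ) :
    e a b z i j k * e a b z i' j' k' = e a b z (i + i') (j + j') (k + k' + j * i') := by
  have hbz : Commute b z := R.zb.symm
  have haz : Commute a z := R.za.symm
  have h1 : z ^ k * a ^ i' = a ^ i' * z ^ k := ((haz.zpow_zpow i' k).eq).symm
  have h2 : ∀ s t : ℤ, z ^ s * b ^ t = b ^ t * z ^ s := fun s t => ((hbz.zpow_zpow t s).eq).symm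
  unfold e
  calc a ^ i * b ^ j * z ^ k * (a ^ i' * b ^ j' * z ^ k')
      = a ^ i * b ^ j * (z ^ k * a ^ i') * b ^ j' * z ^ k' := by group
    _ = a ^ i * (b ^ j * a ^ i') * (z ^ k * b ^ j') * z ^ k' := by rw [h1]; group
    _ = a ^ i * (a ^ i' * b ^ j * z ^ (j * i')) * (b ^ j' * z ^ k) * z ^ k' := by rw [R.comm, h2]
    _ = a ^ i * a ^ i' * b ^ j * (z ^ (j * i') * b ^ j') * z ^ k * z ^ k' := by group
    _ = a ^ i * a ^ i' * b ^ j * (b ^ j' * z ^ (j * i')) * z ^ k * z ^ k' := by rw [h2]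
    _ = a ^ (i + i') * b ^ (j + j') * z ^ (k + k' + j * i') := by
      rw [zpow_add a, zpow_add b, zpow_add z, zpow_add z]
      have h3 : z ^ (j * i') * z ^ k * z ^ k' = z ^ k * z ^ k' * z ^ (j * i') := by
        rw [← zpow_add, ← zpow_add, ← zpow_add, ← zpow_add]
        congr 1
        ring
      calc a ^ i * a ^ i' * b ^ j * (b ^ j' * z ^ (j * i')) * z ^ k * z ^ k'
          = a ^ i * a ^ i' * (b ^ j * b ^ j') * (z ^ (j * i') * z ^ k * z ^ k') := by group
        _ = _ := by rw [h3]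

theorem e_zero : e a b z 0 0 0 = 1 := by simp [e]

theorem Rel.inv (R : Rel a b z) (i j k : ℤ) : (e a b z i j k)⁻¹ = e a b z (-i) (-j) (-k + j * i) := by
  apply inv_eq_of_mul_eq_one_right
  rw [R.mul, ← e_zero (a := a) (b := b) (z := z)]
  congr 1 <;> ring

/-- the group of order 125 -/
def H5 (R : Rel a b z) : Subgroup T where
  carrier := {g | ∃ i j k : ℤ, g = e a b z i j k}
  mul_mem' := by
    rintro _ _ ⟨i, j, k, rfl⟩ ⟨i', j', k', rfl⟩
    exact ⟨_, _, _, R.mul i j k i' j' k'⟩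
  one_mem' := ⟨0, 0, 0, e_zero.symm⟩
  inv_mem' := by
    rintro _ ⟨i, j, k, rfl⟩
    exact ⟨_, _, _, R.inv i j k⟩

theorem zpow_five {x : T} (hx : x ^ 5 = 1) (n : ℤ) : x ^ (5 * n) = 1 := by
  rw [zpow_mul, show (5 : ℤ) = ((5 : ℕ) : ℤ) from rfl, zpow_natCast, hx, one_zpow]

theorem zpow_congr {x : T} (hx : x ^ 5 = 1) {m n : ℤ} (h : (5 : ℤ) ∣ m - n) : x ^ m = x ^ n := by
  obtain ⟨q, hq⟩ := h
  have h1 : m = n + 5 * q := by omega
  rw [h1, zpow_add, zpow_five hx, mul_one]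

theorem Rel.pow_five (R : Rel a b z) (i j k : ℤ) : (e a b z i j k) ^ 5 = 1 := by
  have h1 : (e a b z i j k) ^ 5 = e a b z (5 * i) (5 * j) (5 * (k + 2 * (i * j))) := by
    rw [pow_succ, pow_succ, pow_succ, pow_two, R.mul, R.mul, R.mul, R.mul]
    congr 1 <;> ring
  rw [h1]
  unfold e
  rw [zpow_five R.a5, zpow_five R.b5, zpow_five R.z5]
  simp

theorem mem_zpowers_of {x : T} (hx : x ^ 5 = 1) {k : ℤ} (hk : ¬ (5 : ℤ) ∣ k) : x ∈ zpowers (x ^ k) := by
  have h1 : ∃ m : ℤ, (5 : ℤ) ∣ k * m - 1 := by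
    have h2 : k % 5 = 1 ∨ k % 5 = 2 ∨ k % 5 = 3 ∨ k % 5 = 4 := by omega
    rcases h2 with h | h | h | h
    · exact ⟨1, by omega⟩
    · exact ⟨3, by omega⟩
    · exact ⟨2, by omega⟩
    · exact ⟨4, by omega⟩
  obtain ⟨m, hm⟩ := h1
  refine mem_zpowers_iff.2 ⟨m, ?_⟩
  rw [← zpow_mul]
  have := zpow_congr hx hm
  rwa [zpow_one] at this

theorem exists_mul {j : ℤ} (hj : ¬ (5 : ℤ) ∣ j) (k : ℤ) : ∃ n : ℤ, (5 : ℤ) ∣ k - j * n := by
  have h2 : j % 5 = 1 ∨ j % 5 = 2 ∨ j % 5 = 3 ∨ j % 5 = 4 := by omega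
  obtain ⟨q, hq⟩ : ∃ q, q = j / 5 := ⟨_, rfl⟩
  rcases h2 with h | h | h | h
  · exact ⟨k, ⟨-(q * k), by
      have : j = 5 * q + 1 := by omega
      rw [this]; ring⟩⟩
  · exact ⟨3 * k, ⟨-(3 * q * k) - k, by
      have : j = 5 * q + 2 := by omega
      rw [this]; ring⟩⟩
  · exact ⟨2 * k, ⟨-(2 * q * k) - k, by
      have : j = 5 * q + 3 := by omega
      rw [this]; ring⟩⟩
  · exact ⟨4 * k, ⟨-(4 * q * k) - 3 * k, by
      have : j = 5 * q + 4 := by omega
      rw [this]; ring⟩⟩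

theorem Rel.zpow_c (R : Rel a b z) (l : ℤ) (n : ℤ) : ∃ s : ℤ, (e a b z 1 l 0) ^ n = e a b z n (l * n) s := by
  induction n using Int.induction_on with
  | zero => exact ⟨0, by rw [zpow_zero, mul_zero, e_zero]⟩
  | succ n ih =>
    obtain ⟨s, hs⟩ := ih
    refine ⟨s + 0 + l * n * 1, ?_⟩
    rw [zpow_add, hs, zpow_one, R.mul, show l * (n : ℤ) + l = l * ((n : ℤ) + 1) by ring]
  | pred n ih =>
    obtain ⟨s, hs⟩ := ih
    refine ⟨s + (-0 + l * 1) + l * (-(n : ℤ)) * -1, ?_⟩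
    rw [zpow_sub, hs, zpow_one, R.inv, R.mul, show l * (-(n : ℤ)) + -l = l * (-(n : ℤ) - 1) by ring,
      show -(n : ℤ) + -1 = -(n : ℤ) - 1 by ring]

/-- the elements of the group of order 125 -/
theorem Rel.goodI (R : Rel a b z) (hz : GoodI z) (hb : GoodI b) (hc : ∀ l < 5, GoodI (a * b ^ l)) {i j k : ℤ}
    (h1 : e a b z i j k ≠ 1) : GoodI (e a b z i j k) := by
  by_cases hi : (5 : ℤ) ∣ i
  · have hai : a ^ i = 1 := by
      have := zpow_congr R.a5 (m := i) (n := 0) (by simpa using hi)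
      rwa [zpow_zero] at this
    by_cases hj : (5 : ℤ) ∣ j
    · have hbj : b ^ j = 1 := by
        have := zpow_congr R.b5 (m := j) (n := 0) (by simpa using hj)
        rwa [zpow_zero] at this
      have h2 : e a b z i j k = z ^ k := by rw [e, hai, hbj, one_mul, one_mul]
      rw [h2] at h1 ⊢
      refine GoodI.of_zpowers (mem_zpowers_of R.z5 fun hk => h1 ?_) hz
      have := zpow_congr R.z5 (m := k) (n := 0) (by simpa using hk)
      rwa [zpow_zero] at this
    · obtain ⟨n, hn⟩ := exists_mul hj k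
      have h2 : a ^ n * e a b z i j k * (a ^ n)⁻¹ = b ^ j := by
        rw [e, hai, one_mul, zpow_congr R.z5 hn, mul_inv_eq_iff_eq_mul, R.comm, mul_assoc]
      refine GoodI.of_conj (a ^ n) ?_
      rw [h2]
      exact GoodI.of_zpowers (mem_zpowers_of R.b5 hj) hb
  · obtain ⟨l₀, hl₀⟩ := exists_mul hi j
    obtain ⟨l, hl5, hl⟩ : ∃ l : ℕ, l < 5 ∧ (5 : ℤ) ∣ j - i * l := by
      refine ⟨(l₀ % 5).toNat, by omega, ?_⟩
      have h2 : (((l₀ % 5).toNat : ℕ) : ℤ) = l₀ % 5 := Int.toNat_of_nonneg (Int.emod_nonneg _ (by norm_num))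
      rw [h2]
      have h3 : l₀ % 5 = l₀ - 5 * (l₀ / 5) := by omega
      rw [h3]
      obtain ⟨q, hq⟩ := hl₀
      exact ⟨q + i * (l₀ / 5), by linear_combination hq⟩
    have hce : a * b ^ l = e a b z 1 l 0 := by
      rw [e, zpow_one, zpow_natCast, zpow_zero, mul_one]
    have hgc : GoodI (e a b z 1 l 0) := by
      rw [← hce]
      exact hc l hl5
    obtain ⟨s, hs⟩ := R.zpow_c l i
    have hs' : (e a b z 1 l 0) ^ i = e a b z i j s := by
      rw [hs, e, e, zpow_congr R.b5 (m := l * i) (n := j) (by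
        rw [← dvd_neg, neg_sub]
        rwa [mul_comm] at hl)]
    obtain ⟨n, hn⟩ := exists_mul hi (k - s)
    have h3 : b ^ n * e a b z i j s * (b ^ n)⁻¹ = e a b z i j k := by
      rw [mul_inv_eq_iff_eq_mul]
      have hb' : ∀ n : ℤ, b ^ n = e a b z 0 n 0 := fun n => by rw [e, zpow_zero, zpow_zero, one_mul, mul_one]
      rw [hb', R.mul, R.mul]
      have h4 : ∀ x y : ℤ, (5 : ℤ) ∣ x - y → ∀ p q : ℤ, e a b z p q x = e a b z p q y := by
        intro x y hxy p q
        rw [e, e, zpow_congr R.z5 hxy]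
      rw [add_comm n j, zero_add, add_zero]
      refine h4 _ _ ?_ _ _
      rw [← dvd_neg]
      obtain ⟨q, hq⟩ := hn
      exact ⟨q, by linear_combination hq⟩
    have h4 : (b ^ n)⁻¹ * e a b z i j k * ((b ^ n)⁻¹)⁻¹ = e a b z i j s := by
      rw [← h3]
      group
    refine GoodI.of_conj (b ^ n)⁻¹ ?_
    rw [h4, ← hs']
    refine GoodI.of_zpowers (mem_zpowers_of (R.pow_five 1 l 0) hi) hgc

/-- **Elements of order 5.** -/
theorem goodI_five [Finite T] {m : ℕ} (hcard : Nat.card T = 5 ^ 3 * m) (hm : ¬ 5 ∣ m) (R : Rel a b z) (hz : GoodI z)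
    (hb : GoodI b) (hc : ∀ l < 5, GoodI (a * b ^ l)) (g : T) (hg : orderOf g = 5) : GoodI g := by
  have h5 : Fact (Nat.Prime 5) := ⟨by norm_num⟩
  have hp : IsPGroup 5 (H5 R) := by
    rintro ⟨x, i, j, k, rfl⟩
    exact ⟨1, Subtype.ext (by rw [pow_one]; exact R.pow_five i j k)⟩
  obtain ⟨P, hP⟩ := hp.exists_le_sylow
  have hPc : Nat.card (P : Subgroup T) = 5 ^ 3 := by
    rw [P.card_eq_multiplicity, hcard]
    have hm0 : m ≠ 0 := by
      rintro rfl
      exact hm (dvd_zero _)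
    rw [Nat.factorization_mul (by norm_num) hm0, Nat.Prime.factorization_pow (by norm_num), Finsupp.add_apply,
      Finsupp.single_eq_same, Nat.factorization_eq_zero_of_not_dvd hm]
  have hne : ¬ ∀ x y : H5 R, x * y = y * x := by
    intro h
    have ha : a ∈ H5 R := ⟨1, 0, 0, by rw [e, zpow_zero, zpow_zero, zpow_one, mul_one, mul_one]⟩
    have hb : b ∈ H5 R := ⟨0, 1, 0, by rw [e, zpow_zero, zpow_zero, zpow_one, one_mul, mul_one]⟩
    have h1 : a * b = b * a := congrArg Subtype.val (h ⟨a, ha⟩ ⟨b, hb⟩)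
    have h2 := R.ba
    rw [← h1, left_eq_mul] at h2
    exact R.z1 h2
  have hle : Nat.card (P : Subgroup T) ≤ Nat.card (H5 R) := by
    rw [hPc]
    obtain ⟨n, hn⟩ := hp.exists_card_eq
    rw [hn]
    refine Nat.pow_le_pow_right (by norm_num) ?_
    by_contra hlt
    apply hne
    have hn' : n = 0 ∨ n = 1 ∨ n = 2 := by omega
    rcases hn' with rfl | rfl | rfl
    · rw [pow_zero] at hn
      have := (Nat.card_eq_one_iff_unique.1 hn).1
      intro x y
      exact Subsingleton.elim _ _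
    · rw [pow_one] at hn
      have : IsCyclic (H5 R) := isCyclic_of_prime_card hn
      exact fun x y => (IsCyclic.isMulCommutative (α := H5 R)).is_comm.comm x y
    · exact fun x y => (IsPGroup.isMulCommutative_of_card_eq_prime_sq hn).is_comm.comm x y
  have heq : H5 R = (P : Subgroup T) := eq_of_le_of_card_ge hP hle
  refine goodI_of_sylow P (fun x hx hx5 => ?_) g hg
  rw [← heq] at hx
  obtain ⟨i, j, k, rfl⟩ := hx
  refine R.goodI hz hb hc fun h1 => ?_
  rw [h1, orderOf_one] at hx5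
  omega

end Cfsg.Agent.H991.SprMcL.Five
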