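import Cfsg.Agent.UGT.End.McLOuter
import Cfsg.Agent.TypeM.FactsMcL

/-!
# S3938, `McL`: the outer involutions are conjugate (helper991)

`L : MT 8 G` with `Gen L`: two automorphisms of square one which are not inner are conjugate by an inner automorphism.
-/

set_option autoImplicit false
set_option maxRecDepth 100000

namespace Cfsg.Agent.H991.SprMcL.Outer

open Subgroup Equiv Cfsg.Agent.SporRec.TwoAn Cfsg.Agent.TypeM.Two Cfsg.Agent.TypeM.OuterMcL
open Cfsg.Agent.TypeM.CoverAut Cfsg.Agent.TypeM.FactsAut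
open Cfsg.Agent.UGT.End.McLPerm Cfsg.Agent.UGT.End.McLOuter

variable {G : Type*} [Group G]

/-- the type of an outer automorphism of square one fixing `t` -/
theorem type_conj (L : MT 8 G) (hI : ∀ L' : MT 8 G, L'.t = L.t → EvenInner L') {φ : MulAut G} (hφ : φ * φ = 1)
    (hout : φ ∉ (MulAut.conj : G →* MulAut G).range) (ht : φ L.t = L.t) {σ : Perm (Fin 8)} (hσ : Compat L φ σ) :
    ∃ ρ : Perm (Fin 8), ρ * σ * ρ⁻¹ = s0 := by
  have hE : ∀ L' : MT 8 G, ExPerm L' := fun L' => Cfsg.Agent.TypeM.OuterInst.exPerm L' (by norm_num)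
  have hs : Perm.sign σ = -1 := by
    rcases Int.units_eq_one_or (Perm.sign σ) with h | h
    · exact absurd (hI L rfl φ σ ht hσ h) hout
    · exact h
  have h2 : σ * σ = 1 := by
    refine compat_unique (L := L) (φ := φ * φ) (by rw [MulAut.mul_apply, ht, ht]) (hσ.mul hσ ht) ?_
    rw [hφ]
    exact compat_one
  obtain ⟨ρ, hρ | hρ⟩ := exists_std h2 hs
  · -- a transposition
    exfalso
    have hc := compat_reidx hσ ρ
    rw [hρ] at hc
    set L' := reidx L ρ with hL'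
    have ht' : φ L'.t = L'.t := ht
    obtain ⟨g, hg⟩ := L'.K.exists_lift (σ := s2) (by rw [Perm.mem_alternatingGroup]; decide)
    have hgg : g * g = L'.K.z := L'.K.dbl 2 3 4 5 (by decide) (by decide) (by decide) (by decide) (by decide) (by decide)
      g hg
    have hfix : φ g = g := by
      have h3 := eq_conj_dbl L'.K (by norm_num) (e := resAut L'.t φ ht') (fun g => hc g _ rfl) (a := 2) (b := 3)
        (c := 4) (d := 5) (by decide) (by decide) (by decide) (by decide) (by decide) (w := 1) hg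
        (by rw [map_one]; rfl) (by rw [map_one]; rfl) (by rw [map_one]; rfl) (by rw [map_one]; rfl)
      rw [one_mul, inv_one, mul_one] at h3
      exact congrArg Subtype.val h3
    have hgt : MulAut.conj (g : G) L'.t = L'.t := by
      rw [MulAut.conj_apply, L'.mem_iff.1 g.2, mul_inv_cancel_right]
    refine not_sq L' (ψ := MulAut.conj (g : G) * φ) ?_ ?_ (hE L') (hI L' rfl) ?_
    · rw [MulAut.mul_apply, ht', hgt]
    · have h4 : L'.K.π g * swap 0 1 = s0 := by rw [hg]; decide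
      rw [← h4]
      exact (compat_conj g).mul hc ht'
    · have h5 : φ * MulAut.conj (g : G) = MulAut.conj (g : G) * φ := by
        ext w
        simp only [MulAut.mul_apply, MulAut.conj_apply, map_mul, map_inv, hfix]
      calc MulAut.conj (g : G) * φ * (MulAut.conj (g : G) * φ)
          = MulAut.conj (g : G) * (φ * MulAut.conj (g : G)) * φ := by group
        _ = MulAut.conj (g : G) * MulAut.conj (g : G) * (φ * φ) := by rw [h5]; group
        _ = MulAut.conj L'.t := by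
          rw [hφ, mul_one, ← map_mul]
          exact congrArg MulAut.conj ((congrArg Subtype.val hgg).trans L'.hz)
  · exact ⟨ρ, hρ⟩

/-- the product of an automorphism and an inner one -/
theorem mul_conj (φ : MulAut G) (b : G) : φ * MulAut.conj b = MulAut.conj (φ b) * φ := by
  ext x
  simp only [MulAut.mul_apply, MulAut.conj_apply, map_mul, map_inv]

/-- conjugates of outer automorphisms -/
theorem conj_outer {φ : MulAut G} (hφ : φ ∉ (MulAut.conj : G →* MulAut G).range) (g : G) :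
    MulAut.conj g * φ * (MulAut.conj g)⁻¹ ∉ (MulAut.conj : G →* MulAut G).range := by
  rintro ⟨c, hc⟩
  apply hφ
  refine ⟨g⁻¹ * c * g, ?_⟩
  rw [map_mul, map_mul, hc, map_inv]
  group

theorem conj_sq {φ : MulAut G} (hφ : φ * φ = 1) (x : MulAut G) : x * φ * x⁻¹ * (x * φ * x⁻¹) = 1 := by
  calc x * φ * x⁻¹ * (x * φ * x⁻¹) = x * (φ * φ) * x⁻¹ := by group
    _ = 1 := by rw [hφ]; group

/-- two outer automorphisms of square one fixing `t` -/
theorem conj_of_fix (L : MT 8 G) (hG : Gen L) {φ ψ : MulAut G} (hφ : φ * φ = 1) (hψ : ψ * ψ = 1)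
    (hφo : φ ∉ (MulAut.conj : G →* MulAut G).range) (hψo : ψ ∉ (MulAut.conj : G →* MulAut G).range)
    (hφt : φ L.t = L.t) (hψt : ψ L.t = L.t) : ∃ g : G, MulAut.conj g * φ * (MulAut.conj g)⁻¹ = ψ := by
  have hI : ∀ L' : MT 8 G, L'.t = L.t → EvenInner L' := fun L' h =>
    Cfsg.Agent.TypeM.OuterInst.evenInner L' (Or.inl rfl) (by
      intro u hu hu1 hut hc
      rw [h] at hut hc ⊢
      exact hG u hu hu1 hut hc)
  have hE : ExPerm L := Cfsg.Agent.TypeM.OuterInst.exPerm L (by norm_num)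
  obtain ⟨σ, hσ⟩ := hE φ hφt
  obtain ⟨τ, hτ⟩ := hE ψ hψt
  obtain ⟨ρ₁, h1⟩ := type_conj L hI hφ hφo hφt hσ
  obtain ⟨ρ₂, h2⟩ := type_conj L hI hψ hψo hψt hτ
  -- an even permutation carrying `σ` to `τ`
  obtain ⟨κ, hκe, hκ⟩ : ∃ κ : Perm (Fin 8), κ ∈ alternatingGroup (Fin 8) ∧ κ * σ * κ⁻¹ = τ := by
    have h3 : ρ₂⁻¹ * ρ₁ * σ * (ρ₂⁻¹ * ρ₁)⁻¹ = τ := by
      calc ρ₂⁻¹ * ρ₁ * σ * (ρ₂⁻¹ * ρ₁)⁻¹ = ρ₂⁻¹ * (ρ₁ * σ * ρ₁⁻¹) * ρ₂ := by group
        _ = ρ₂⁻¹ * (ρ₂ * τ * ρ₂⁻¹) * ρ₂ := by rw [h1, h2]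
        _ = τ := by group
    rcases Int.units_eq_one_or (Perm.sign (ρ₂⁻¹ * ρ₁)) with h | h
    · exact ⟨_, Perm.mem_alternatingGroup.2 h, h3⟩
    · refine ⟨ρ₂⁻¹ * swap 6 7 * ρ₁, ?_, ?_⟩
      · rw [Perm.mem_alternatingGroup, map_mul, map_mul]
        rw [map_mul] at h
        rw [mul_right_comm, h]
        decide
      · have h4 : (swap 6 7 : Perm (Fin 8)) * s0 * (swap 6 7)⁻¹ = s0 := by decide
        calc ρ₂⁻¹ * swap 6 7 * ρ₁ * σ * (ρ₂⁻¹ * swap 6 7 * ρ₁)⁻¹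
            = ρ₂⁻¹ * (swap 6 7 * (ρ₁ * σ * ρ₁⁻¹) * (swap 6 7)⁻¹) * ρ₂ := by group
          _ = ρ₂⁻¹ * (ρ₂ * τ * ρ₂⁻¹) * ρ₂ := by rw [h1, h4, h2]
          _ = τ := by group
  obtain ⟨c, hc⟩ := L.K.exists_lift hκe
  have hct : MulAut.conj (c : G) L.t = L.t := by
    rw [MulAut.conj_apply, L.mem_iff.1 c.2, mul_inv_cancel_right]
  have hct' : (MulAut.conj (c : G))⁻¹ L.t = L.t := by
    rw [MulAut.conj_inv_apply, mul_assoc, ← L.mem_iff.1 c.2, inv_mul_cancel_left]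
  set φ₂ := MulAut.conj (c : G) * φ * (MulAut.conj (c : G))⁻¹ with hφ₂
  have hφ₂t : φ₂ L.t = L.t := by rw [hφ₂, MulAut.mul_apply, MulAut.mul_apply, hct', hφt, hct]
  have hcc : Compat L ((MulAut.conj (c : G))⁻¹) (L.K.π c)⁻¹ := by
    have h3 := compat_conj (L := L) c⁻¹
    rw [map_inv] at h3
    have h4 : MulAut.conj (((c⁻¹ : centralizer ({L.t} : Set G)) : G)) = (MulAut.conj (c : G))⁻¹ := by
      rw [Subgroup.coe_inv, map_inv]
    rwa [h4] at h3
  have hφ₂c : Compat L φ₂ τ := by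
    have h3 := ((compat_conj (L := L) c).mul hσ hφt).mul hcc hct'
    rwa [hc, hκ] at h3
  -- the quotient is trivial on `C(t) / t`
  have hq : (φ₂ * ψ) L.t = L.t := by rw [MulAut.mul_apply, hψt, hφ₂t]
  have hττ : τ * τ = 1 := by
    refine compat_unique (L := L) (φ := ψ * ψ) (by rw [MulAut.mul_apply, hψt, hψt]) (hτ.mul hτ hψt) ?_
    rw [hψ]
    exact compat_one
  have hqc : Compat L (φ₂ * ψ) 1 := by
    have h3 := hφ₂c.mul hτ hψt
    rwa [hττ] at h3
  have h5 : 5 ≤ Fintype.card (Fin 8) := by rw [Fintype.card_fin]; norm_num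
  have h6 : resAut L.t (φ₂ * ψ) hq = 1 := eq_one_of_perm L.K h5 (fun g => by
    have h3 := hqc g (resAut L.t (φ₂ * ψ) hq g) rfl
    rw [h3]
    group)
  have h7 : ∀ g ∈ centralizer ({L.t} : Set G), (φ₂ * ψ) g = g := by
    intro g hg
    exact congrArg (fun f : MulAut (centralizer ({L.t} : Set G)) => ((f ⟨g, hg⟩ : centralizer ({L.t} : Set G)) : G)) h6
  have hψo' : ∀ g, ψ ≠ MulAut.conj g := fun g hg => hψo ⟨g, hg.symm⟩
  have hψinv : ψ⁻¹ = ψ := inv_eq_of_mul_eq_one_left hψ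
  rcases eq_one_or_conj L (Or.inl rfl) hG h7 with h8 | h8
  · refine ⟨c, ?_⟩
    rw [← hφ₂, mul_eq_one_iff_eq_inv.1 h8, hψinv]
  · -- `φ₂ = conj t * ψ`
    obtain ⟨⟨a, hat, ha⟩, -⟩ := exists_neg_pos L (Or.inl rfl) hG hψo' hψt (fun g _ => by
      rw [← MulAut.mul_apply, hψ, MulAut.one_apply])
    have h9 : φ₂ = MulAut.conj L.t * ψ := by
      rw [← h8, mul_assoc, hψ, mul_one]
    have h10 : MulAut.conj a * ψ * (MulAut.conj a)⁻¹ = MulAut.conj L.t * ψ := by
      rw [mul_assoc, ← map_inv, mul_conj, map_inv, ha, ← mul_assoc, ← map_mul]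
      congr 2
      rw [mul_inv_rev, ← mul_assoc, L.t_inv, hat, mul_assoc, mul_inv_cancel, mul_one]
    refine ⟨a⁻¹ * c, ?_⟩
    rw [map_mul, map_inv, mul_inv_rev, inv_inv]
    calc (MulAut.conj a)⁻¹ * MulAut.conj (c : G) * φ * ((MulAut.conj (c : G))⁻¹ * MulAut.conj a)
        = (MulAut.conj a)⁻¹ * (MulAut.conj (c : G) * φ * (MulAut.conj (c : G))⁻¹) * MulAut.conj a := by group
      _ = (MulAut.conj a)⁻¹ * (MulAut.conj a * ψ * (MulAut.conj a)⁻¹) * MulAut.conj a := by rw [← hφ₂, h9, h10]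
      _ = ψ := by group

/-- an automorphism of square one is conjugate to one fixing `t` -/
theorem exists_fix [Finite G] (L : MT 8 G) {φ : MulAut G} (hφ : φ * φ = 1) :
    ∃ g : G, (MulAut.conj g * φ * (MulAut.conj g)⁻¹) L.t = L.t := by
  have h2 : 2 ∣ Nat.card G := by
    rw [← L.orderOf_t]
    exact orderOf_dvd_natCard _
  obtain ⟨s, hs, hs1, hfix⟩ := exists_fixed h2 hφ
  obtain ⟨g, hg⟩ := L.one s hs hs1
  refine ⟨g⁻¹, ?_⟩
  rw [MulAut.mul_apply, MulAut.mul_apply, map_inv, inv_inv, MulAut.conj_apply, hg, hfix, MulAut.conj_inv_apply, ← hg]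
  group

/-- **The outer involutions are conjugate.** -/
theorem outer_conj [Finite G] (L : MT 8 G) (hG : Gen L) {φ ψ : MulAut G} (hφ : φ * φ = 1) (hψ : ψ * ψ = 1)
    (hφo : φ ∉ (MulAut.conj : G →* MulAut G).range) (hψo : ψ ∉ (MulAut.conj : G →* MulAut G).range) :
    ∃ g : G, MulAut.conj g * φ * (MulAut.conj g)⁻¹ = ψ := by
  obtain ⟨a, ha⟩ := exists_fix L hφ
  obtain ⟨b, hb⟩ := exists_fix L hψ
  obtain ⟨c, hc⟩ := conj_of_fix L hG (conj_sq hφ (MulAut.conj a)) (conj_sq hψ (MulAut.conj b)) (conj_outer hφo a)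
    (conj_outer hψo b) ha hb
  refine ⟨b⁻¹ * c * a, ?_⟩
  rw [map_mul, map_mul, map_inv]
  calc (MulAut.conj b)⁻¹ * MulAut.conj c * MulAut.conj a * φ * ((MulAut.conj b)⁻¹ * MulAut.conj c * MulAut.conj a)⁻¹
      = (MulAut.conj b)⁻¹ * (MulAut.conj c * (MulAut.conj a * φ * (MulAut.conj a)⁻¹) * (MulAut.conj c)⁻¹) *
          MulAut.conj b := by group
    _ = ψ := by rw [hc]; group

end Cfsg.Agent.H991.SprMcL.Outer
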