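import Cfsg.Agent.TypeM.FactsMcL

/-!
# S3938, `McL`: elements of order 3 (helper991)

`L : MT 8 G`, every element of order 3 commutes with an involution: the elements of order 3 are conjugate to `X₁` or `X₂`.
-/

set_option autoImplicit false
set_option maxRecDepth 100000

namespace Cfsg.Agent.H991.SprMcL.Three

open Subgroup Equiv Cfsg.Agent.SporRec.TwoAn Cfsg.Agent.TypeM.Two

/-- `(0 1 2)` -/
def c1 : Perm (Fin 8) := swap 0 1 * swap 0 2

/-- `(3 4 5)` -/
def c1' : Perm (Fin 8) := swap 3 4 * swap 3 5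

/-- `(0 1 2)(3 4 5)` -/
def c2 : Perm (Fin 8) := c1 * c1'

theorem cycleType_c1 : c1.cycleType = {3} := Perm.isThreeCycle_swap_mul_swap_same (by decide) (by decide) (by decide)

theorem cycleType_c1' : c1'.cycleType = {3} := Perm.isThreeCycle_swap_mul_swap_same (by decide) (by decide) (by decide)

theorem cycleType_c2 : c2.cycleType = {3} + {3} := by
  rw [c2, Perm.Disjoint.cycleType_mul (by rw [Perm.disjoint_iff_eq_or_eq]; decide), cycleType_c1, cycleType_c1']

/-- elements of order 3 of `A₈` -/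
theorem exists_even {σ : Perm (Fin 8)} (h : orderOf σ = 3) :
    ∃ κ ∈ alternatingGroup (Fin 8), κ * σ * κ⁻¹ = c1 ∨ κ * σ * κ⁻¹ = c2 := by
  have h1 : ∃ κ : Perm (Fin 8), κ * σ * κ⁻¹ = c1 ∨ κ * σ * κ⁻¹ = c2 := by
    obtain ⟨n, hn⟩ := Perm.cycleType_prime_order (σ := σ) (by rw [h]; exact Nat.prime_three)
    rw [h] at hn
    have hsum := σ.sum_cycleType
    rw [hn, Multiset.sum_replicate, smul_eq_mul] at hsum
    have hle : σ.support.card ≤ 8 := by
      have := Finset.card_le_univ σ.support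
      rwa [Fintype.card_fin] at this
    have hn1 : n = 0 ∨ n = 1 := by omega
    rcases hn1 with rfl | rfl
    · obtain ⟨κ, hκ⟩ := isConj_iff.1 (Perm.isConj_iff_cycleType_eq.2 (hn.trans (by rw [cycleType_c1]; rfl) : σ.cycleType = c1.cycleType))
      exact ⟨κ, Or.inl hκ⟩
    · obtain ⟨κ, hκ⟩ := isConj_iff.1 (Perm.isConj_iff_cycleType_eq.2 (hn.trans (by rw [cycleType_c2]; rfl) : σ.cycleType = c2.cycleType))
      exact ⟨κ, Or.inr hκ⟩
  obtain ⟨κ, hκ⟩ := h1
  rcases Int.units_eq_one_or (Perm.sign κ) with hs | hs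
  · exact ⟨κ, Perm.mem_alternatingGroup.2 hs, hκ⟩
  · refine ⟨swap 6 7 * κ, ?_, ?_⟩
    · rw [Perm.mem_alternatingGroup, map_mul, hs]
      decide
    · have e : ∀ c : Perm (Fin 8), κ * σ * κ⁻¹ = c → swap 6 7 * κ * σ * (swap 6 7 * κ)⁻¹ = swap 6 7 * c * (swap 6 7)⁻¹ := by
        rintro c rfl
        group
      rcases hκ with hκ | hκ
      · left
        rw [e _ hκ]
        decide
      · right
        rw [e _ hκ]
        decide

theorem c1_mem : c1 ∈ alternatingGroup (Fin 8) := by rw [Perm.mem_alternatingGroup]; decide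
theorem c2_mem : c2 ∈ alternatingGroup (Fin 8) := by rw [Perm.mem_alternatingGroup]; decide
theorem c1_pow : c1 ^ 3 = 1 := by decide
theorem c2_pow : c2 ^ 3 = 1 := by decide

/-- **Two classes of elements of order 3.** -/
theorem exists_two {G : Type*} [Group G] (L : MT 8 G)
    (hcomm : ∀ x : G, orderOf x = 3 → ∃ s : G, orderOf s = 2 ∧ s * x = x * s) :
    ∃ X₁ X₂ : G, ∀ g : G, orderOf g = 3 → (∃ u : G, u * g * u⁻¹ = X₁) ∨ ∃ u : G, u * g * u⁻¹ = X₂ := by
  obtain ⟨y₁, hy₁, hy₁3⟩ := L.K.exists_odd_lift c1_mem (n := 3) (by decide) c1_pow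
  obtain ⟨y₂, hy₂, hy₂3⟩ := L.K.exists_odd_lift c2_mem (n := 3) (by decide) c2_pow
  refine ⟨y₁, y₂, fun g hg => ?_⟩
  obtain ⟨s, hs, hsg⟩ := hcomm g hg
  have hss : s * s = 1 := by rw [← pow_two, ← hs, pow_orderOf_eq_one]
  have hs1 : s ≠ 1 := by
    rintro rfl
    rw [orderOf_one] at hs
    omega
  obtain ⟨u, hu⟩ := L.one s hss hs1
  -- `u⁻¹ g u` commutes with `t`
  have hm : u⁻¹ * g * u ∈ centralizer ({L.t} : Set G) := by
    rw [mem_centralizer_singleton_iff]
    calc u⁻¹ * g * u * L.t = u⁻¹ * (g * (u * L.t * u⁻¹)) * u := by group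
      _ = u⁻¹ * ((u * L.t * u⁻¹) * g) * u := by rw [hu, hsg]
      _ = L.t * (u⁻¹ * g * u) := by group
  set x : centralizer ({L.t} : Set G) := ⟨_, hm⟩ with hx
  have hxo : orderOf x = 3 := by
    rw [hx, Subgroup.orderOf_mk, ← hg]
    have := orderOf_injective (MulAut.conj u⁻¹).toMonoidHom (MulAut.conj u⁻¹).injective g
    rw [← this]
    congr 1
    change _ = u⁻¹ * g * u⁻¹⁻¹
    rw [inv_inv]
  have hx3 : x ^ 3 = 1 := by rw [← hxo, pow_orderOf_eq_one]
  have hπ : orderOf (L.K.π x) = 3 := by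
    refine orderOf_eq_prime_iff.2 ⟨by rw [← map_pow, hx3, map_one], fun h => ?_⟩
    rcases (L.K.ker x).1 h with h1 | h1
    · rw [h1, orderOf_one] at hxo
      omega
    · rw [h1, L.K.orderOf_z] at hxo
      omega
  obtain ⟨κ, hκ, h⟩ := exists_even hπ
  obtain ⟨w, hw⟩ := L.K.exists_lift hκ
  have key : ∀ y : centralizer ({L.t} : Set G), y ^ 3 = 1 → κ * L.K.π x * κ⁻¹ = L.K.π y →
      ∃ v : G, v * g * v⁻¹ = y := by
    intro y hy h1
    have h2 : w * x * w⁻¹ = y := by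
      refine L.K.odd_lift_unique (n := 3) (by decide) ?_ hy ?_
      · rw [conj_pow, hx3, mul_one, mul_inv_cancel]
      · rw [map_mul, map_mul, map_inv, hw, h1]
    refine ⟨w * u⁻¹, ?_⟩
    have h3 : (w : G) * (u⁻¹ * g * u) * (w : G)⁻¹ = y := congrArg Subtype.val h2
    rw [← h3]
    group
  rcases h with h | h
  · left
    exact key y₁ hy₁3 (by rw [h, hy₁])
  · right
    exact key y₂ hy₂3 (by rw [h, hy₂])

end Cfsg.Agent.H991.SprMcL.Three
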