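import Cfsg.Agent.H904.McLCent
import Cfsg.Agent.H609.TH.Expl

/-!
# S3938, `McL`: generation by two elements given by tables (helper991)
-/

set_option autoImplicit false
set_option maxRecDepth 100000

namespace Cfsg.Agent.H991.SprMcL.Gen

open Cfsg.Agent.SporadicA.PermTab Cfsg.Agent.McLType.X275 Cfsg.Agent.McLType.Gens Subgroup Equiv
open Cfsg.Agent.H904.McLCent

/-- the inverse table -/
theorem inG_inv {n : ℕ} {G : Subgroup (Perm (Fin n))} {P Q : ℕ} (h : InG G P) (hc : chkInv n P Q = true) : InG G Q := by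
  obtain ⟨g, hg, hgi⟩ := h
  refine ⟨g⁻¹, G.inv_mem hg, fun i => ?_⟩
  obtain ⟨-, h1, -, h2⟩ := chkInv_spec hc i
  have h3 : g ⟨lk Q i, h1⟩ = i := Fin.ext ((hgi _).trans h2)
  have h4 : g⁻¹ i = ⟨lk Q i, h1⟩ := by rw [Perm.inv_eq_iff_eq, h3]
  rw [h4]

theorem mem_getT {n : ℕ} {G : Subgroup (Perm (Fin n))} {P0 : ℕ} {L : List ℕ} (h0 : InG G P0) (hL : ∀ P ∈ L, InG G P)
    (w : List ℕ) : ∀ P ∈ w.map (getT P0 L), InG G P := by
  intro P hP
  obtain ⟨k, -, rfl⟩ := List.mem_map.1 hP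
  rcases getT_mem P0 L k with h | h
  · rw [h]; exact h0
  · exact hL _ h

/-- words in the generators -/
def tw (w : List ℕ) : List ℕ := w.map (getT e_a e7)

theorem in_tw (w : List ℕ) : ∀ P ∈ tw w, InG K0 P := mem_getT (inAll _ (by simp [e7])) inAll w

/-- a table in `K0` -/
theorem in_word (w : List ℕ) {S : ℕ} (h : chkWord 275 S (tw w) = true) : InG K0 S := InG.word (in_tw w) h

/-- words in four tables -/
def fw (P Q P' Q' : ℕ) (w : List ℕ) : List ℕ := w.map (getT P [P, Q, P', Q'])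

/-- the check: the tables `P`, `Q` generate -/
def chkGen (P Q P' Q' : ℕ) (W : List (List ℕ)) : Bool :=
  band (chkInv 275 P P') (band (chkInv 275 Q Q')
    (allB (fun k => chkWord 275 (e7.getD k 0) (fw P Q P' Q' (W.getD k []))) 7))

universe u

variable {T : Type u} [Group T] {θ : T →* Perm (Fin 275)}

/-- **Generation.** -/
theorem closure_top (R : Rep T θ) {g x : T} {P Q : ℕ} (hg : ∀ i : Fin 275, ((θ g i : Fin 275) : ℕ) = lk P i)
    (hx : ∀ i : Fin 275, ((θ x i : Fin 275) : ℕ) = lk Q i) {P' Q' : ℕ} {W : List (List ℕ)}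
    (h : chkGen P Q P' Q' W = true) : closure ({x, g} : Set T) = ⊤ := by
  unfold chkGen at h
  rw [band_eq_true, band_eq_true] at h
  obtain ⟨h1, h2, h3⟩ := h
  set H := (closure ({x, g} : Set T)).map θ with hH
  have hP : InG H P := ⟨θ g, ⟨g, Subgroup.subset_closure (Or.inr rfl), rfl⟩, hg⟩
  have hQ : InG H Q := ⟨θ x, ⟨x, Subgroup.subset_closure (Or.inl rfl), rfl⟩, hx⟩
  have hP' := inG_inv hP h1
  have hQ' := inG_inv hQ h2
  have hall : ∀ w : List ℕ, ∀ S ∈ fw P Q P' Q' w, InG H S := fun w => mem_getT hP (by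
    intro S hS
    simp only [List.mem_cons, List.not_mem_nil, or_false] at hS
    rcases hS with rfl | rfl | rfl | rfl
    · exact hP
    · exact hQ
    · exact hP'
    · exact hQ') w
  have hle : K0 ≤ H := by
    refine (closure_le _).2 ?_
    rintro _ ⟨k, rfl⟩
    obtain ⟨y, hy, hyi⟩ := InG.word (hall _) ((allB_iff _ _).1 h3 k k.2)
    have h4 : σ k = y := Equiv.ext fun i => Fin.ext (by rw [e_spec, hyi])
    rw [h4]
    exact hy
  rw [eq_top_iff]
  intro y _
  have h4 : θ y ∈ K0 := by rw [← R.range]; exact ⟨y, rfl⟩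
  obtain ⟨w, hw, hwy⟩ := hle h4
  rwa [← R.inj hwy]

/-- an element given by a table is good -/
theorem goodI_of_tab (R : Rep T θ) {g : T} {P Q : ℕ} (hg : ∀ i : Fin 275, ((θ g i : Fin 275) : ℕ) = lk P i)
    (hQ : InG K0 Q) {P' Q' : ℕ} {W : List (List ℕ)} (h : chkGen P Q P' Q' W = true) : Cfsg.Agent.H609.TH.GoodI g := by
  obtain ⟨x, hx⟩ := R.exists_of hQ
  exact ⟨x, closure_top R hg hx h⟩

end Cfsg.Agent.H991.SprMcL.Gen
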